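import Cfsg.Agent.H922.QS.FiThree

/-!
# `3.Fi22`: the movers of helper494 (helper922)

`x_0 = f b a h d c e`, `x_1 = c e b h d f`, `x_2 = f h b c d e i` and words `c_i` with `[c_i, x_i] ≠ 1` in `3.Fi22`.
-/

set_option autoImplicit false

namespace Cfsg.Agent.H922.QS.FiMove

open Cfsg Cfsg.Agent.H922.QS.FiThree

/-- the word `x_0` -/
def x0 : List Spor.Fi22.Gen := [.f, .b, .a, .h, .d, .c, .e]

/-- the word `c_0` -/
def c0 : List Spor.Fi22.Gen :=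
  [.e, .c, .d, .h, .i, .c, .d, .e, .b, .c, .d, .h, .f, .e, .d, .c, .b, .d, .e, .f, .i, .b, .a, .c, .b, .d, .e,
  .h, .d, .c, .d, .a, .h, .e, .f, .b, .c, .d, .a, .c, .b, .i, .f, .i, .f, .c, .h, .d, .c, .e, .f, .i, .e, .b,
  .a, .c, .b, .d, .e, .h, .c, .d, .g, .e, .c, .h, .g, .f, .d, .b, .a, .c, .e, .b, .i, .h, .d, .c, .e, .d, .h,
  .i, .h, .e, .c, .d, .e, .h, .d, .c, .d, .e, .h, .d]

theorem mv0 : wd3 c0 * wd3 x0 ≠ wd3 x0 * wd3 c0 :=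
  comm_ne (p := 1) (by norm_num) (by decide +kernel)

/-- the word `x_1` -/
def x1 : List Spor.Fi22.Gen := [.c, .e, .b, .h, .d, .f]

/-- the word `c_1` -/
def c1 : List Spor.Fi22.Gen :=
  [.f, .e, .d, .h, .i, .h, .d, .e, .b, .c, .d, .h, .f, .e, .d, .c, .b, .c, .e, .f, .d, .e, .f, .h, .i, .h, .d,
  .c, .e, .d, .h, .i, .d, .e, .h, .d]

theorem mv1 : wd3 c1 * wd3 x1 ≠ wd3 x1 * wd3 c1 :=
  comm_ne (p := 1) (by norm_num) (by decide +kernel)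

/-- the word `x_2` -/
def x2 : List Spor.Fi22.Gen := [.f, .h, .b, .c, .d, .e, .i]

/-- the word `c_2` -/
def c2 : List Spor.Fi22.Gen :=
  [.f, .d, .e, .b, .c, .d, .h, .i, .h, .d, .e, .b, .c, .d, .h, .f, .e, .d, .c, .b, .i, .f, .e, .d, .c, .h, .d,
  .e, .f, .d, .c, .d, .e, .d, .e]

theorem mv2 : wd3 c2 * wd3 x2 ≠ wd3 x2 * wd3 c2 :=
  comm_ne (p := 1) (by norm_num) (by decide +kernel)

end Cfsg.Agent.H922.QS.FiMove
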